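import Cfsg.Agent.H105.Og.TransOdd
import Cfsg.Agent.S0293

/-!
# Transfer to `PΩ⁺_{2m}(q)` (S2454, for helper105)
-/

set_option autoImplicit false

namespace Cfsg.Agent.H36.Og

open QuadraticMap Cfsg Matrix Module Subgroup Cfsg.Agent.LieClassical.OrthCore
  Cfsg.Agent.LieClassical.OrthForms Cfsg.Agent.LieClassical.OrthFinite Cfsg.Agent.LieClassical.OrthTrans
  Cfsg.Agent.LieClassical.OrthSimple Cfsg.Agent.H122.OrthIso Cfsg.Agent.H105.Og

/-- the isometry `quadFormPlus m F ≅ HU (Fin m) 0` -/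
def plusE (m : ℕ) (F : Type*) [Field F] :
    (Fin m ⊕ Fin m → F) ≃ₗ[F] (((Fin m → F) × (Fin m → F)) × (Fin 0 → F)) where
  toFun v := ((fun i => v (.inl i), fun i => v (.inr i)), fun i => i.elim0)
  map_add' _ _ := by
    refine Prod.ext rfl ?_
    funext i; exact i.elim0
  map_smul' _ _ := by
    refine Prod.ext rfl ?_
    funext i; exact i.elim0
  invFun v := Sum.elim v.1.1 v.1.2
  left_inv v := by
    funext i
    rcases i with i | i <;> rfl
  right_inv v := by
    refine Prod.ext rfl ?_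
    funext i; exact i.elim0

theorem isoQ_plus (m : ℕ) (F : Type*) [Field F] :
    IsoQ (plusForm m F) (HU (Fin m) (0 : QuadraticForm F (Fin 0 → F))) := by
  refine ⟨plusE m F, fun v => ?_⟩
  rw [HU_apply, coe_plusForm, quadFormPlus]
  show (∑ i, v (.inl i) * v (.inr i)) + 0 = _
  rw [add_zero]

theorem transPlus {S : Type*} [Group S] [IsSimpleGroup S] {l : ℕ} (h : IsPOmegaPlusChar l S) :
    ∃ (F : Type) (_ : Field F) (_ : Finite F) (U : Type) (_ : AddCommGroup U) (_ : Module F U)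
      (_ : FiniteDimensional F U) (n : ℕ) (R : QuadraticForm F U), 4 ≤ n ∧ finrank F U = 0 ∧ Nondeg R ∧
      Nat.card S ∣ Nat.card F ^ (n * (n - 1)) * (Nat.card F ^ n - 1) *
        ∏ i ∈ Finset.range (n - 1), (Nat.card F ^ (2 * (i + 1)) - 1) ∧
      Nonempty ((E (HU (Fin n) R) ⧸ center (E (HU (Fin n) R))) ≃* S) := by
  obtain ⟨F, _, _, _, m, hm, ⟨φ⟩⟩ := h
  refine ⟨F, inferInstance, inferInstance, Fin 0 → F, inferInstance, inferInstance, inferInstance, m,
    (0 : QuadraticForm F (Fin 0 → F)), hm, by simp, ?_, ?_,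
    quot_of_iso (nondeg_plusForm m F) (by simp; omega) (coe_plusForm m F) φ (isoQ_plus m F)⟩
  · intro x _
    exact Subsingleton.elim _ _
  have h3 := S0293.result (F := F) rfl m hm
  rw [Nat.card_eq_fintype_card (α := F), ← h3, Nat.card_congr φ.toEquiv]
  exact Dvd.intro_left _ rfl

end Cfsg.Agent.H36.Og
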